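import Mathlib
import Cfsg.Agent.Clifford.Correspondence
import Cfsg.Agent.Clifford.ExtCriteria
import Cfsg.Agent.Clifford.CosetAvg
import Cfsg.Agent.PCore.Basic
import Cfsg.Agent.PCore.PSolvable

/-!
Vanishing elements from linear characters with small inertia groups.
-/

set_option autoImplicit false

namespace CfsgLib.VanishingP

open scoped commutatorElement
open CfsgLib.CharBasics CfsgLib.Clifford

universe u

variable {G : Type u} [Group G]

/-- `g` is a zero of some irreducible character. -/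
def Vanish (g : G) : Prop := ∃ χ : Cfsg.IrrCharacter G, (χ : G → ℂ) g = 0

theorem Vanish.comap {H : Type u} [Group H] {f : G →* H} (hf : Function.Surjective f) {g : G}
    (h : Vanish (f g)) : Vanish g := by
  obtain ⟨χ, hχ⟩ := h
  exact ⟨⟨fun x => (χ : H → ℂ) (f x), CfsgLib.Clifford.isIrrCharacter_comp χ.2 f hf⟩, hχ⟩

theorem linChar_irr (N : Subgroup G) [Finite N] (f : N →* ℂˣ) : Cfsg.IsIrrCharacter N (fun n => (f n : ℂ)) :=
  isIrrCharacter_of_hom ((Units.coeHom ℂ).comp f)

theorem exists_over [Fintype G] (N : Subgroup G) [Fintype N] {θ : N → ℂ} (hθ : Cfsg.IsIrrCharacter N θ) :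
    ∃ χ : Cfsg.IrrCharacter G, Cfsg.classInner (fun n : N => (χ : G → ℂ) n) θ ≠ 0 := by
  have hI := isCharacter_indFun N (CfsgLib.CharBasics.isCharacter_of_irr hθ)
  have h1 : Cfsg.indFun N θ 1 ≠ 0 := by
    rw [indFun_apply_one]
    exact mul_ne_zero (Nat.cast_ne_zero.mpr Subgroup.index_ne_zero_of_finite) (apply_one_ne_zero hθ)
  obtain ⟨χ, m, hm, hχ⟩ := exists_constituent hI h1
  refine ⟨χ, fun h0 => ?_⟩
  rw [classInner_indFun N θ (isClassFunction (CfsgLib.CharBasics.isCharacter_of_irr χ.2)), classInner_comm, h0, map_zero] at hχ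
  exact hm.ne' (by exact_mod_cast hχ.symm)

/-- An element none of whose conjugates lies in the inertia group vanishes somewhere. -/
theorem vanish_of_avoid [Finite G] (N : Subgroup G) [N.Normal] (f : N →* ℂˣ) (g : G)
    (h : ∀ x : G, x⁻¹ * g * x ∉ inertia (fun n : N => (f n : ℂ))) : Vanish g := by
  classical
  haveI := Fintype.ofFinite G
  have hθ := linChar_irr N f
  obtain ⟨χ, hχ⟩ := exists_over N hθ
  obtain ⟨ψ, hψ, hind, -, -⟩ := exists_inertia_correspondent χ.2 hθ hχ _ rfl
    (le_inertia (isClassFunction (CfsgLib.CharBasics.isCharacter_of_irr hθ)))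
  refine ⟨χ, ?_⟩
  rw [← hind, Cfsg.indFun, Finset.sum_eq_zero fun x _ => CfsgLib.IndFun.extendByZero_not_mem ψ (h x), mul_zero]

/-- A coset of a normal subgroup inside one class vanishes somewhere. -/
theorem vanish_of_coset_conj [Finite G] (E : Subgroup G) [E.Normal] (f : E →* ℂˣ) (hf : f ≠ 1) (x : G)
    (h : ∀ e ∈ E, IsConj x (e * x)) : Vanish x := by
  classical
  haveI := Fintype.ofFinite G
  have hθ := linChar_irr E f
  obtain ⟨χ, hχ⟩ := exists_over E hθ
  have hnk : ¬ ∀ n ∈ E, (χ : G → ℂ) n = (χ : G → ℂ) 1 := by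
    intro hk
    apply hχ
    have e : (fun n : E => (χ : G → ℂ) n) = (χ : G → ℂ) 1 • (fun _ : E => (1 : ℂ)) := by
      funext n; simp [hk n n.2]
    rw [e, classInner_smul_left, classInner_ne isIrrCharacter_one hθ, mul_zero]
    intro h1
    exact hf (MonoidHom.ext fun n => Units.ext (congrFun h1 n).symm)
  have hs := coset_sum_eq_zero χ.2 hnk x
  rw [Finset.sum_congr rfl (fun (n : E) _ => (apply_isConj (CfsgLib.CharBasics.isCharacter_of_irr χ.2) (h n n.2)).symm), Finset.sum_const,
    nsmul_eq_mul] at hs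
  exact ⟨χ, (mul_eq_zero.1 hs).resolve_left (Nat.cast_ne_zero.2 Finset.univ_nonempty.card_pos.ne')⟩

section Dual

variable (M : Subgroup G) [M.Normal]

/-- The action on linear characters of a normal subgroup. -/
def act (a : G) (f : M →* ℂˣ) : M →* ℂˣ := f.comp (MulAut.conjNormal a).toMonoidHom

theorem act_apply (a : G) (f : M →* ℂˣ) (m : M) : act M a f m = f (MulAut.conjNormal a m) := rfl

theorem act_act (a b : G) (f : M →* ℂˣ) : act M a (act M b f) = act M (b * a) f := by
  ext m; simp [act_apply, map_mul]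

theorem act_div (a : G) (f f' : M →* ℂˣ) : act M a (f / f') = act M a f / act M a f' := by
  ext m; simp [act_apply]

theorem act_mul (a : G) (f f' : M →* ℂˣ) : act M a (f * f') = act M a f * act M a f' := by
  ext m; simp [act_apply]

theorem mem_inertia_iff (a : G) (f : M →* ℂˣ) :
    a ∈ inertia (fun m : M => (f m : ℂ)) ↔ act M a f = f := by
  rw [mem_inertia, conjFun_eq_comp, funext_iff, MonoidHom.ext_iff]
  refine forall_congr' fun m => ?_
  rw [act_apply]
  exact ⟨fun h => Units.ext h, fun h => congrArg Units.val h⟩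

/-- The dual kernel. -/
def dualKer : Subgroup G := ⨅ f : M →* ℂˣ, inertia (fun m : M => (f m : ℂ))

theorem mem_dualKer (a : G) : a ∈ dualKer M ↔ ∀ f : M →* ℂˣ, act M a f = f := by
  simp [dualKer, Subgroup.mem_iInf, mem_inertia_iff]

instance dualKer_normal : (dualKer M).Normal := by
  refine ⟨fun s hs g => ?_⟩
  rw [mem_dualKer] at hs ⊢
  intro f
  rw [← act_act, ← act_act, hs, act_act, mul_inv_cancel]
  ext m; simp [act_apply]

end Dual

end CfsgLib.VanishingP
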