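import Mathlib
import Cfsg.Agent.VanishingP.Avoid

/-!
Everything with a power in a normal elementary `p`-layer above `O_{p'}` vanishes.
-/

set_option autoImplicit false

namespace CfsgLib.VanishingP

open scoped commutatorElement
open CfsgLib.Clifford

universe u

variable {G : Type u} [Group G] {p : ℕ}

theorem eq_one_of_act_fixed [Finite G] (M : Subgroup G) [M.Normal] (hcop : (Nat.card M).Coprime p) {a : G}
    (hap : a ^ p = 1) (y : M →* ℂˣ) (h : act M a (act M a y / y) = act M a y / y) : act M a y = y := by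
  set w := act M a y / y with hw
  have hpow : ∀ i : ℕ, act M (a ^ i) y = y * w ^ i := by
    intro i
    induction i with
    | zero => ext m; simp [act_apply]
    | succ i ih =>
      have h1 : act M a (w ^ i) = w ^ i := by
        conv_rhs => rw [← h]
        ext m; simp [act_apply]
      rw [pow_succ, ← act_act, ih, act_mul, h1]
      refine MonoidHom.ext fun m => ?_
      simp only [MonoidHom.mul_apply, MonoidHom.pow_apply, hw, MonoidHom.div_apply]
      rw [pow_succ', ← mul_assoc, mul_div_cancel]
  have hwp : w ^ p = 1 := by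
    have := hpow p
    rw [hap] at this
    have e : act M (1 : G) y = y := by ext m; simp [act_apply]
    rw [e] at this
    refine MonoidHom.ext fun m => ?_
    have h2 := congrArg (fun z : M →* ℂˣ => z m) this
    simpa using h2
  have hwM : w ^ Nat.card M = 1 := by
    refine MonoidHom.ext fun m => ?_
    show w m ^ Nat.card M = 1
    rw [← map_pow, pow_card_eq_one', map_one]
  have : w = 1 := by
    refine MonoidHom.ext fun m => ?_
    have h1 : w m ^ Nat.card M = 1 := congrArg (fun z : M →* ℂˣ => z m) hwM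
    have h2 : w m ^ p = 1 := congrArg (fun z : M →* ℂˣ => z m) hwp
    have := pow_gcd_eq_one.2 ⟨h1, h2⟩
    rwa [hcop, pow_one] at this
  refine MonoidHom.ext fun m => ?_
  have h2 := congrArg (fun z : M →* ℂˣ => z m) (hw.symm.trans this)
  simpa [div_eq_one] using h2

/-- Regular orbit: some linear character has the smallest possible inertia group in `A`. -/
theorem exists_small_inertia [Finite G] (M : Subgroup G) [M.Normal] (hcop : (Nat.card M).Coprime p)
    (A : Subgroup G) (hexp : ∀ a ∈ A, a ^ p = 1) (hab : ∀ a ∈ A, ∀ b ∈ A, a * b = b * a) :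
    ∃ f : M →* ℂˣ, A ⊓ inertia (fun m : M => (f m : ℂ)) ≤ dualKer M := by
  obtain ⟨f, -, hf⟩ := exists_minimalFor_of_wellFoundedLT (fun _ : M →* ℂˣ => True)
    (fun f => Nat.card ↥(A ⊓ inertia (fun m : M => (f m : ℂ)))) ⟨1, trivial⟩
  refine ⟨f, fun a ha => ?_⟩
  rw [mem_dualKer]
  by_contra hne
  obtain ⟨f', hf'⟩ := not_forall.1 hne
  have haA : a ∈ A := ha.1
  have haf : act M a f = f := (mem_inertia_iff M a f).1 ha.2
  set w := act M a f' / f' with hw
  have hwa : act M a w ≠ w := fun h => hf' (eq_one_of_act_fixed M hcop (hexp a haA) f' h)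
  have hsub : A ⊓ inertia (fun m : M => ((f * w) m : ℂ)) ≤ A ⊓ inertia (fun m : M => (f m : ℂ)) ∧
      ∀ b ∈ A ⊓ inertia (fun m : M => ((f * w) m : ℂ)), act M b w = w := by
    have key : ∀ b ∈ A ⊓ inertia (fun m : M => ((f * w) m : ℂ)), act M b w = w := by
      intro b hb
      have hbA : b ∈ A := hb.1
      have hfix := (mem_inertia_iff M b (f * w)).1 hb.2
      rw [act_mul] at hfix
      have hc : ∀ z : M →* ℂˣ, act M a (act M b z) = act M b (act M a z) := by
        intro z; rw [act_act, act_act, hab a haA b hbA]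
      -- the defect `u` is both fixed by `a` and a coboundary
      let y := f' / act M b f'
      have hy : act M a y / y = w / act M b w := by
        show act M a (f' / act M b f') / (f' / act M b f') = _
        rw [hw, act_div, act_div, hc]
        ext m; simp [div_eq_mul_inv]; ring
      have hu : w / act M b w = act M b f / f := by
        refine MonoidHom.ext fun m => ?_
        have h2 := congrArg (fun z : M →* ℂˣ => z m) hfix
        simp only [MonoidHom.mul_apply] at h2
        simp only [MonoidHom.div_apply]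
        rw [div_eq_div_iff_mul_eq_mul, mul_comm (w m), ← h2]
      have hfixu : act M a (act M a y / y) = act M a y / y := by
        rw [hy, hu, act_div, hc, haf]
      have := eq_one_of_act_fixed M hcop (hexp a haA) y hfixu
      rw [this] at hy
      refine MonoidHom.ext fun m => ?_
      have h2 := congrArg (fun z : M →* ℂˣ => z m) hy
      simp only [MonoidHom.div_apply, div_self'] at h2
      exact (div_eq_one.1 h2.symm).symm
    refine ⟨fun b hb => ⟨hb.1, (mem_inertia_iff M b f).2 ?_⟩, key⟩
    have hfix := (mem_inertia_iff M b (f * w)).1 hb.2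
    rw [act_mul, key b hb] at hfix
    exact mul_right_cancel hfix
  have hlt : A ⊓ inertia (fun m : M => ((f * w) m : ℂ)) < A ⊓ inertia (fun m : M => (f m : ℂ)) :=
    lt_of_le_of_ne hsub.1 (fun h => hwa (hsub.2 a (h ▸ ha)))
  have hcard := Set.ncard_lt_ncard (SetLike.coe_ssubset_coe.2 hlt) (Set.toFinite _)
  rw [← Nat.card_coe_set_eq, ← Nat.card_coe_set_eq] at hcard
  exact absurd (hf (j := f * w) trivial hcard.le) (not_le.2 hcard)

/-- An element with a power in `(A ⊔ K) \ K` vanishes. -/
theorem vanish_of_power [Finite G] [Group.IsSolvable G] [hp : Fact p.Prime] (hcore : Cfsg.pCore p G = ⊥)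
    (K : Subgroup G) [K.Normal] (hKcop : (Nat.card K).Coprime p) :
    ∀ A : Subgroup G, (∀ a ∈ A, a ^ p = 1) → (∀ a ∈ A, ∀ b ∈ A, a * b = b * a) → (A ⊔ K).Normal →
      ∀ g : G, ∀ m : ℕ, g ^ m ∈ A ⊔ K → g ^ m ∉ K → Vanish g := by
  intro A
  induction hn : Nat.card A using Nat.strong_induction_on generalizing A with
  | _ n ih =>
  intro hexp hab hH g m hgm hgK
  haveI := hH
  have hcop1 : ∀ x ∈ K, x ^ p = 1 → x = 1 := by
    intro x hx hxp
    have h1 : x ^ Nat.card K = 1 := by
      have := congrArg Subtype.val (pow_card_eq_one' (x := (⟨x, hx⟩ : K)))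
      rwa [SubgroupClass.coe_pow, OneMemClass.coe_one] at this
    have := pow_gcd_eq_one.2 ⟨h1, hxp⟩
    rwa [hKcop, pow_one] at this
  let D : Subgroup G := Subgroup.normalClosure (A : Set G)
  have hDn : D.Normal := Subgroup.normalClosure_normal
  have hAD : A ≤ D := Subgroup.le_normalClosure
  have hDH : D ≤ A ⊔ K := Subgroup.normalClosure_le_normal (SetLike.coe_subset_coe.2 le_sup_left)
  let M : Subgroup G := D ⊓ K
  haveI hMn : M.Normal := inferInstanceAs (D ⊓ K).Normal
  have hMcop : (Nat.card M).Coprime p := Nat.Coprime.coprime_dvd_left (Subgroup.card_dvd_of_le inf_le_right) hKcop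
  have hsplit : ∀ d ∈ D, ∃ a ∈ A, ∃ k ∈ M, a * k = d := by
    intro d hd
    obtain ⟨a, ha, k, hk, rfl⟩ := Subgroup.mem_sup_of_normal_right.1 (hDH hd)
    exact ⟨a, ha, k, ⟨(Subgroup.mul_mem_cancel_left _ (hAD ha)).1 hd, hk⟩, rfl⟩
  have hMker : M ≤ dualKer M := by
    intro x hx
    rw [mem_dualKer]
    intro f
    ext n
    rw [act_apply, show MulAut.conjNormal x n = (⟨x, hx⟩ : M) * n * (⟨x, hx⟩ : M)⁻¹ from Subtype.ext (by simp), map_mul, map_mul, map_inv,
      mul_inv_cancel_comm]
  let C : Subgroup G := A ⊓ dualKer M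
  by_cases hAC : A ≤ dualKer M
  · -- then `D` is an abelian normal `p`-group
    exfalso
    haveI hM'n : (⁅M, M⁆ : Subgroup G).Normal := Subgroup.commutator_normal _ _
    have hAM : ∀ a ∈ A, ∀ x ∈ M, ⁅a, x⁆ ∈ ⁅M, M⁆ := by
      intro a ha x hx
      let c : M := (MulAut.conjNormal a ⟨x, hx⟩ : M) * (⟨x, hx⟩ : M)⁻¹
      have hc : c ∈ commutator M := by
        rw [← QuotientGroup.eq_one_iff]
        by_contra hne
        obtain ⟨φ, hφ⟩ := CommGroup.exists_apply_ne_one_of_hasEnoughRootsOfUnity (Abelianization M) ℂ hne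
        apply hφ
        have hfix := (mem_dualKer M a).1 (hAC ha) (φ.comp Abelianization.of)
        have h1 := congrArg (fun f : M →* ℂˣ => f ⟨x, hx⟩) hfix
        simp only [act_apply] at h1
        show (φ.comp Abelianization.of) c = 1
        rw [map_mul, map_inv, h1, mul_inv_cancel]
      have h2 : (c : G) ∈ ⁅M, M⁆ := by
        rw [← Subgroup.map_subtype_commutator M]
        exact Subgroup.mem_map_of_mem M.subtype hc
      have e : ⁅a, x⁆ = (c : G) := by
        simp [c, commutatorElement_def]
      rw [e]; exact h2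
    let U : Subgroup G := A ⊔ ⁅M, M⁆
    have hU : ∀ y : G, ∀ a ∈ A, y * a * y⁻¹ ∈ U := by
      intro y a ha
      obtain ⟨a', ha', k, hk, he⟩ := hsplit _ (hDn.conj_mem a (hAD ha) y)
      rw [← he]
      have hq : Commute (QuotientGroup.mk' ⁅M, M⁆ a') (QuotientGroup.mk' ⁅M, M⁆ k) := by
        rw [← commutatorElement_eq_one_iff_commute, ← map_commutatorElement]
        exact (QuotientGroup.eq_one_iff _).2 (hAM a' ha' k hk)
      have hpw : QuotientGroup.mk' ⁅M, M⁆ k ^ p = 1 := by
        have h1 : QuotientGroup.mk' ⁅M, M⁆ (a' * k) ^ p = 1 := by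
          rw [he, ← map_pow, conj_pow, hexp a ha]; simp
        rw [map_mul, hq.mul_pow, ← map_pow, hexp a' ha', map_one, one_mul] at h1
        exact h1
      have hpM : QuotientGroup.mk' ⁅M, M⁆ k ^ Nat.card M = 1 := by
        have := congrArg Subtype.val (pow_card_eq_one' (x := (⟨k, hk⟩ : M)))
        rw [SubgroupClass.coe_pow, OneMemClass.coe_one] at this
        rw [← map_pow, this, map_one]
      have := pow_gcd_eq_one.2 ⟨hpM, hpw⟩
      rw [hMcop, pow_one] at this
      exact U.mul_mem (le_sup_left (b := ⁅M, M⁆) ha') (le_sup_right (a := A) ((QuotientGroup.eq_one_iff _).1 this))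
    have hUn : U.Normal := by
      refine ⟨fun u hu y => ?_⟩
      obtain ⟨a, ha, c, hc, rfl⟩ := Subgroup.mem_sup_of_normal_right.1 hu
      rw [show y * (a * c) * y⁻¹ = y * a * y⁻¹ * (y * c * y⁻¹) by group]
      exact U.mul_mem (hU y a ha) (le_sup_right (a := A) (hM'n.conj_mem c hc y))
    have hMle : M ≤ ⁅M, M⁆ := by
      intro x hx
      haveI := hUn
      obtain ⟨a, ha, c, hc, he⟩ := Subgroup.mem_sup_of_normal_right.1
        (Subgroup.normalClosure_le_normal (N := U) (SetLike.coe_subset_coe.2 le_sup_left) hx.1)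
      have hcM : c ∈ M := Subgroup.commutator_le_self M hc
      have ha1 : a = 1 := hcop1 a ((Subgroup.mul_mem_cancel_right _ hcM.2).1 (he ▸ hx.2)) (hexp a ha)
      rw [← he, ha1, one_mul]; exact hc
    have hMbot : M = ⊥ := by
      by_contra hne
      exact (Group.IsSolvable.commutator_lt_of_ne_bot hne).not_ge hMle
    have hDA : D ≤ A := by
      intro d hd
      obtain ⟨a, ha, k, hk, rfl⟩ := hsplit d hd
      rw [hMbot, Subgroup.mem_bot] at hk
      rw [hk, mul_one]; exact ha
    have hAp : IsPGroup p A := fun a => ⟨1, by rw [pow_one]; exact Subtype.ext (hexp a a.2)⟩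
    haveI : A.Normal := (le_antisymm hDA hAD) ▸ hDn
    have hA : A = ⊥ := le_bot_iff.1 (hcore ▸ CfsgLib.PCore.le_pCore inferInstance hAp)
    exact hgK (by rw [hA, bot_sup_eq] at hgm; exact hgm)
  · have hCA : C < A := lt_of_le_of_ne inf_le_left (fun h => hAC (h ▸ inf_le_right))
    have hCK : C ⊔ K = (D ⊓ dualKer M) ⊔ K := by
      refine le_antisymm (sup_le_sup_right (le_inf (inf_le_left.trans hAD) inf_le_right) _) (sup_le ?_ le_sup_right)
      intro d hd
      obtain ⟨a, ha, k, hk, rfl⟩ := hsplit d hd.1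
      refine Subgroup.mul_mem_sup ⟨ha, (Subgroup.mul_mem_cancel_right _ (hMker hk)).1 hd.2⟩ hk.2
    haveI hCn : (C ⊔ K).Normal := by
      rw [hCK]
      haveI : (D ⊓ dualKer M).Normal := inferInstance
      infer_instance
    by_cases hgC : g ^ m ∈ C ⊔ K
    · have hlt : Nat.card C < n := by
        rw [← hn]
        have := Set.ncard_lt_ncard (SetLike.coe_ssubset_coe.2 hCA) (Set.toFinite _)
        rwa [← Nat.card_coe_set_eq, ← Nat.card_coe_set_eq] at this
      exact ih _ hlt C rfl (fun a ha => hexp a ha.1) (fun a ha b hb => hab a ha.1 b hb.1) hCn g m hgC hgK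
    · obtain ⟨f, hf⟩ := exists_small_inertia M hMcop A hexp hab
      refine vanish_of_avoid M f g fun x hx => hgC ?_
      let y := x⁻¹ * g ^ m * x
      have hyS : y ∈ inertia (fun n : M => (f n : ℂ)) := by
        have := pow_mem hx m
        rwa [show (x⁻¹ * g * x) ^ m = y by rw [show x⁻¹ * g * x = x⁻¹ * g * x⁻¹⁻¹ by rw [inv_inv], conj_pow, inv_inv]] at this
      have hyH : y ∈ A ⊔ K := by
        simpa [y] using hH.conj_mem _ hgm x⁻¹
      obtain ⟨a, ha, k, hk, hak⟩ := Subgroup.mem_sup_of_normal_right.1 hyH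
      haveI := hDn
      have hyD : y ^ Nat.card K ∈ D := by
        rw [← QuotientGroup.eq_one_iff, ← hak]
        show QuotientGroup.mk' D ((a * k) ^ Nat.card K) = 1
        rw [map_pow, map_mul, show QuotientGroup.mk' D a = 1 from (QuotientGroup.eq_one_iff _).2 (hAD ha), one_mul,
          ← map_pow]
        have := congrArg Subtype.val (pow_card_eq_one' (x := (⟨k, hk⟩ : K)))
        rw [SubgroupClass.coe_pow, OneMemClass.coe_one] at this
        rw [this, map_one]
      obtain ⟨a', ha', k', hk', he⟩ := hsplit _ hyD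
      have h1 : y ^ Nat.card K ∈ C ⊔ K := by
        rw [← he]
        refine Subgroup.mul_mem_sup ⟨ha', hf ⟨ha', ?_⟩⟩ hk'.2
        exact (Subgroup.mul_mem_cancel_right _ (iInf_le (fun f : M →* ℂˣ => inertia (fun n : M => (f n : ℂ))) f (hMker hk'))).1
          (he ▸ pow_mem hyS _)
      have h2 : y ^ p ∈ C ⊔ K := by
        refine le_sup_right (a := C) ?_
        rw [← QuotientGroup.eq_one_iff, ← hak]
        show QuotientGroup.mk' K ((a * k) ^ p) = 1
        rw [map_pow, map_mul, show QuotientGroup.mk' K k = 1 from (QuotientGroup.eq_one_iff _).2 hk, mul_one,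
          ← map_pow, hexp a ha, map_one]
      have hy : y ∈ C ⊔ K := by
        have hb := Nat.gcd_eq_gcd_ab (Nat.card K) p
        rw [hKcop] at hb
        have : y = (y ^ Nat.card K) ^ Nat.gcdA (Nat.card K) p * (y ^ p) ^ Nat.gcdB (Nat.card K) p := by
          rw [← zpow_natCast y, ← zpow_natCast y, ← zpow_mul, ← zpow_mul, ← zpow_add, ← hb, Nat.cast_one, zpow_one]
        rw [this]
        exact mul_mem (zpow_mem h1 _) (zpow_mem h2 _)
      have := hCn.conj_mem y hy x
      simpa [y, mul_assoc] using this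

end CfsgLib.VanishingP
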