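import Mathlib
import Cfsg.Agent.VanishingP.Core
import Cfsg.Agent.CoprimeAction.Hyperplane

/-!
A solvable group with `O_p = 1` whose vanishing `p`-singular elements have one order has Sylow order at most `p`.
-/

set_option autoImplicit false

namespace CfsgLib.VanishingP

open scoped commutatorElement

universe u

variable {G : Type u} [Group G] {p : ℕ}

/-- Vanishing `p`-singular powers have the same order. -/
def OneOrder (p : ℕ) (G : Type u) [Group G] : Prop :=
  ∀ (g : G) (m : ℕ), p ∣ orderOf g → p ∣ orderOf (g ^ m) → Vanish g → Vanish (g ^ m) → m.Coprime (orderOf g)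

theorem eq_one_of_commute [Fact p.Prime] (H : OneOrder p G) {a z : G} (hap : a ^ p = 1) (ha : a ≠ 1)
    (hcop : (orderOf z).Coprime p) (hc : Commute a z) (h1 : Vanish (a * z))
    (h2 : Vanish (a ^ orderOf z)) : z = 1 := by
  have hoa : orderOf a = p := orderOf_eq_prime hap ha
  have hpow : (a * z) ^ orderOf z = a ^ orderOf z := by rw [hc.mul_pow, pow_orderOf_eq_one, mul_one]
  have hord : orderOf (a * z) = p * orderOf z := by
    rw [hc.orderOf_mul_eq_mul_orderOf_of_coprime (by rw [hoa]; exact hcop.symm), hoa]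
  have hord2 : orderOf (a ^ orderOf z) = p := by
    rw [Nat.Coprime.orderOf_pow (by rw [hoa]; exact hcop.symm), hoa]
  have := H (a * z) (orderOf z) (hord ▸ dvd_mul_right p _) (by rw [hpow, hord2]) h1 (hpow ▸ h2)
  rw [hord] at this
  rw [← orderOf_eq_one_iff]
  exact Nat.Coprime.eq_one_of_dvd this (dvd_mul_left _ _)

theorem exists_elementary_lift [Finite G] [Fact p.Prime] (K : Subgroup G) [K.Normal] (hK : (Nat.card K).Coprime p)
    (B : Subgroup (G ⧸ K)) (hB : ∀ b ∈ B, b ^ p = 1) (hBc : ∀ a ∈ B, ∀ b ∈ B, a * b = b * a) :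
    ∃ A : Subgroup G, (∀ a ∈ A, a ^ p = 1) ∧ (∀ a ∈ A, ∀ b ∈ A, a * b = b * a) ∧
      A ⊔ K = B.comap (QuotientGroup.mk' K) ∧ A ⊓ K = ⊥ ∧ Nat.card A = Nat.card B := by
  set L := B.comap (QuotientGroup.mk' K) with hL
  have hKL : K ≤ L := fun x hx => by
    rw [hL, Subgroup.mem_comap, QuotientGroup.mk'_apply, (QuotientGroup.eq_one_iff x).2 hx]
    exact B.one_mem
  have hBp : IsPGroup p B := fun b => ⟨1, by rw [pow_one]; exact Subtype.ext (hB b b.2)⟩
  have hcardK : Nat.card (K.subgroupOf L) = Nat.card K := Nat.card_congr (Subgroup.subgroupOfEquivOfLe hKL).toEquiv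
  have hidx : (K.subgroupOf L).index = Nat.card B := by
    have h := Subgroup.card_mul_index (K.subgroupOf L)
    rw [hcardK, CfsgLib.PCore.card_comap_mk' K B] at h
    exact Nat.eq_of_mul_eq_mul_left Nat.card_pos h
  obtain ⟨C, hC⟩ := Subgroup.exists_left_complement'_of_coprime (N := K.subgroupOf L) (by
    rw [hcardK, hidx]
    obtain ⟨e, he⟩ := IsPGroup.iff_card.1 hBp
    rw [he]; exact hK.pow_right e)
  have hinf : C.map L.subtype ⊓ K = ⊥ := by
    rw [eq_bot_iff]
    rintro x ⟨⟨y, hy, rfl⟩, hx⟩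
    have h1 := hC.disjoint.le_bot (show y ∈ C ⊓ K.subgroupOf L from ⟨hy, hx⟩)
    rw [Subgroup.mem_bot] at h1
    rw [h1]; exact Subgroup.mem_bot.2 rfl
  have hsub : ∀ a ∈ C.map L.subtype, QuotientGroup.mk' K a ∈ B := fun a ha => Subgroup.map_subtype_le C ha
  have hinj : ∀ a ∈ C.map L.subtype, QuotientGroup.mk' K a = 1 → a = 1 := fun a ha h =>
    Subgroup.mem_bot.1 (hinf ▸ ⟨ha, (QuotientGroup.eq_one_iff a).1 h⟩)
  refine ⟨C.map L.subtype, fun a ha => hinj _ (pow_mem ha p) (by rw [map_pow]; exact hB _ (hsub a ha)),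
    fun a ha b hb => ?_, ?_, hinf, ?_⟩
  · rw [← commutatorElement_eq_one_iff_mul_comm]
    refine hinj _ ((C.map L.subtype).mul_mem ((C.map L.subtype).mul_mem ((C.map L.subtype).mul_mem ha hb)
      ((C.map L.subtype).inv_mem ha)) ((C.map L.subtype).inv_mem hb)) ?_
    rw [map_commutatorElement, commutatorElement_eq_one_iff_mul_comm]
    exact hBc _ (hsub a ha) _ (hsub b hb)
  · refine le_antisymm (sup_le (Subgroup.map_subtype_le C) hKL) ?_
    intro x hx
    have h1 : (⟨x, hx⟩ : L) ∈ C ⊔ K.subgroupOf L := by rw [hC.sup_eq_top]; trivial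
    obtain ⟨c, hc, k, hk, he⟩ := Subgroup.mem_sup_of_normal_right.1 h1
    have he' := congrArg Subtype.val he
    rw [← show (c : G) * (k : G) = x from he']
    exact Subgroup.mul_mem_sup ⟨c, hc, rfl⟩ hk
  · rw [Subgroup.card_map_of_injective L.subtype_injective, ← hC.index_eq_card, hidx]

/-- If all lifts of `B` vanish then `B` has order at most `p`. -/
theorem card_le_of_lifts_vanish [Finite G] [Fact p.Prime] (H : OneOrder p G) (K : Subgroup G) [K.Normal]
    (hK : (Nat.card K).Coprime p) (hK1 : K ≠ ⊥)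
    (B : Subgroup (G ⧸ K)) (hB : ∀ b ∈ B, b ^ p = 1) (hBc : ∀ a ∈ B, ∀ b ∈ B, a * b = b * a)
    (hV : ∀ g : G, QuotientGroup.mk' K g ∈ B → QuotientGroup.mk' K g ≠ 1 → Vanish g) :
    Nat.card B ≤ p := by
  obtain ⟨A, hexp, hab, hsup, hinf, hcard⟩ := exists_elementary_lift K hK B hB hBc
  by_contra hlt
  haveI : IsMulCommutative A := ⟨⟨fun a b => Subtype.ext (hab a a.2 b b.2)⟩⟩
  have hAp : IsPGroup p A := fun a => ⟨1, by rw [pow_one]; exact Subtype.ext (hexp a a.2)⟩
  have hA1 : A ≠ ⊥ := by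
    intro h
    rw [h, Subgroup.card_bot] at hcard
    have := (Fact.out : p.Prime).one_lt
    omega
  have hAK : A ≤ Subgroup.normalizer (K : Set G) := by rw [Subgroup.normalizer_eq_top]; exact le_top
  have hcop : (Nat.card A).Coprime (Nat.card K) := by
    obtain ⟨e, he⟩ := IsPGroup.iff_card.1 hAp
    rw [he]; exact hK.symm.pow_left e
  refine hK1 (le_bot_iff.1 (CfsgLib.CoprimeAction.le_of_hyperplane_centralizers_le hA1 hexp hAK hcop ?_))
  intro U hUA hU k hk
  obtain ⟨a, haU, ha1⟩ : ∃ a ∈ U, a ≠ 1 := by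
    by_contra hne
    push_neg at hne
    rw [(Subgroup.eq_bot_iff_forall U).2 hne, Subgroup.relIndex_bot_left] at hU
    omega
  rw [Subgroup.mem_bot]
  have hkK : k ∈ K := hk.1
  have hcomm : Commute a k := hk.2 a haU
  have hk0 : QuotientGroup.mk' K k = 1 := (QuotientGroup.eq_one_iff k).2 hkK
  have ha0 : QuotientGroup.mk' K a ≠ 1 := fun h =>
    ha1 (Subgroup.mem_bot.1 (hinf ▸ ⟨hUA haU, (QuotientGroup.eq_one_iff a).1 h⟩))
  have haB : QuotientGroup.mk' K a ∈ B := by
    have : a ∈ B.comap (QuotientGroup.mk' K) := hsup ▸ (le_sup_left (b := K) (hUA haU))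
    exact this
  have hok : (orderOf k).Coprime p := by
    refine Nat.Coprime.coprime_dvd_left ?_ hK
    have h2 := orderOf_dvd_natCard (⟨k, hkK⟩ : K)
    rwa [Subgroup.orderOf_mk] at h2
  refine eq_one_of_commute H (hexp a (hUA haU)) ha1 hok hcomm (hV _ ?_ ?_) (hV _ ?_ ?_)
  · rw [map_mul, hk0, mul_one]; exact haB
  · rw [map_mul, hk0, mul_one]; exact ha0
  · rw [map_pow]; exact pow_mem haB _
  · intro h
    rw [map_pow] at h
    have := pow_gcd_eq_one.2 ⟨h, hB _ haB⟩
    rw [hok, pow_one] at this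
    exact ha0 this

theorem main [Finite G] [Group.IsSolvable G] [hp : Fact p.Prime] (hcore : Cfsg.pCore p G = ⊥)
    (H : OneOrder p G) (P : Sylow p G) : Nat.card P ≤ p := by
  haveI hKn := Cfsg.pPrimeCore_normal p G
  set K := Cfsg.pPrimeCore p G with hKdef
  have hK : (Nat.card K).Coprime p := CfsgLib.PCore.pPrimeCore_coprime p G
  by_cases hPbot : (P : Subgroup G) = ⊥
  · rw [show Nat.card P = Nat.card (P : Subgroup G) from rfl, hPbot, Subgroup.card_bot]
    exact hp.out.one_le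
  have hG : Nontrivial G := ((P : Subgroup G).nontrivial_iff_exists_ne_one.1
    ((P : Subgroup G).nontrivial_iff_ne_bot.2 hPbot)).elim fun x hx => ⟨⟨x, 1, hx.2⟩⟩
  have hK1 : K ≠ ⊥ := (CfsgLib.PCore.cores_ne_bot_of_isSolvable (p := p)).resolve_left (fun h => h hcore)
  set π := QuotientGroup.mk' K with hπ
  have hπs : Function.Surjective π := QuotientGroup.mk'_surjective K
  have hinjP : ∀ x ∈ (P : Subgroup G), π x = 1 → x = 1 := by
    intro x hx h
    obtain ⟨j, hj⟩ := P.2 ⟨x, hx⟩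
    have h1 : x ^ p ^ j = 1 := by
      have := congrArg Subtype.val hj
      rwa [SubgroupClass.coe_pow, OneMemClass.coe_one] at this
    have h2 : x ^ Nat.card K = 1 := by
      have := congrArg Subtype.val (pow_card_eq_one' (x := (⟨x, (QuotientGroup.eq_one_iff x).1 h⟩ : K)))
      rwa [SubgroupClass.coe_pow, OneMemClass.coe_one] at this
    have := pow_gcd_eq_one.2 ⟨h2, h1⟩
    rwa [hK.pow_right j, pow_one] at this
  haveI : Nontrivial (G ⧸ K) := by
    obtain ⟨x, hx, hx1⟩ := (P : Subgroup G).nontrivial_iff_exists_ne_one.1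
      ((P : Subgroup G).nontrivial_iff_ne_bot.2 hPbot)
    exact ⟨⟨π x, 1, fun h => hx1 (hinjP x hx h)⟩⟩
  haveI : Group.IsSolvable (G ⧸ K) := solvable_of_surjective hπs
  let R : Subgroup (G ⧸ K) := Cfsg.pCore p (G ⧸ K)
  have hR : R ≠ ⊥ := (CfsgLib.PCore.cores_ne_bot_of_isSolvable (p := p)).resolve_right
    (fun h => h CfsgLib.PCore.pPrimeCore_quotient)
  haveI hRn : R.Normal := (Cfsg.pCore_normal p (G ⧸ K))
  have hRp : IsPGroup p R := CfsgLib.PCore.isPGroup_pCore p _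
  -- `E = Ω₁(Z(R))`
  let E : Subgroup (G ⧸ K) :=
    { carrier := {r | r ∈ R ∧ r ∈ Subgroup.centralizer (R : Set (G ⧸ K)) ∧ r ^ p = 1}
      mul_mem' := fun {a b} ha hb => ⟨mul_mem ha.1 hb.1, mul_mem ha.2.1 hb.2.1, by
        rw [Commute.mul_pow (hb.2.1 a ha.1) p, ha.2.2, hb.2.2, mul_one]⟩
      one_mem' := ⟨one_mem _, one_mem _, one_pow _⟩
      inv_mem' := fun {a} ha => ⟨inv_mem ha.1, inv_mem ha.2.1, by rw [inv_pow, ha.2.2, inv_one]⟩ }
  have hmemE : ∀ {r}, r ∈ E ↔ r ∈ R ∧ r ∈ Subgroup.centralizer (R : Set (G ⧸ K)) ∧ r ^ p = 1 := Iff.rfl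
  haveI hEn : E.Normal := by
    refine ⟨fun r hr g => hmemE.2 ⟨hRn.conj_mem r hr.1 g, ?_, by rw [conj_pow, hr.2.2]; group⟩⟩
    exact (inferInstance : (Subgroup.centralizer (R : Set (G ⧸ K))).Normal).conj_mem r hr.2.1 g
  have hEc : ∀ a ∈ E, ∀ b ∈ E, a * b = b * a := fun a ha b hb => hb.2.1 a ha.1
  obtain ⟨e, heE, he1⟩ : ∃ e ∈ E, e ≠ 1 := by
    haveI : Nontrivial R := R.nontrivial_iff_ne_bot.2 hR
    haveI := hRp.center_nontrivial
    obtain ⟨z, hz, hzp⟩ : ∃ z : Subgroup.center R, z ≠ 1 ∧ z ^ p = 1 := by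
      obtain ⟨n, hn⟩ := IsPGroup.iff_card.1 (hRp.to_subgroup (Subgroup.center R))
      have hn0 : n ≠ 0 := by
        rintro rfl
        exact absurd hn (Finite.one_lt_card (α := Subgroup.center R)).ne'
      obtain ⟨z, hz⟩ := exists_prime_orderOf_dvd_card' p (hn ▸ dvd_pow_self p hn0)
      exact ⟨z, fun h => hp.out.one_lt.ne' (by rw [← hz, h, orderOf_one]), by rw [← hz, pow_orderOf_eq_one]⟩
    refine ⟨((z : R) : G ⧸ K), hmemE.2 ⟨(z : R).2, fun r hr => ?_, ?_⟩, fun h => hz (Subtype.ext (Subtype.ext h))⟩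
    · exact congrArg Subtype.val (Subgroup.mem_center_iff.1 z.2 ⟨r, hr⟩)
    · simpa using congrArg (fun w : Subgroup.center R => ((w : R) : G ⧸ K)) hzp
  obtain ⟨A, hAexp, hAab, hAsup, hAinf, hAcard⟩ := exists_elementary_lift K hK E (fun b hb => hb.2.2) hEc
  haveI hAKn : (A ⊔ K).Normal := by rw [hAsup]; exact Subgroup.Normal.comap hEn _
  have V1 : ∀ (g : G) (m : ℕ), π g ^ m ∈ E → π g ^ m ≠ 1 → Vanish g := by
    intro g m h1 h2
    refine vanish_of_power hcore K hK A hAexp hAab hAKn g m ?_ (fun h => h2 ?_)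
    · rw [hAsup, Subgroup.mem_comap, map_pow]; exact h1
    · rw [← map_pow]; exact (QuotientGroup.eq_one_iff _).2 h
  have hEcard : Nat.card E ≤ p :=
    card_le_of_lifts_vanish H K hK hK1 E (fun b hb => hb.2.2) hEc
      (fun g h1 h2 => V1 g 1 ((pow_one (π g)).symm ▸ h1) ((pow_one (π g)).symm ▸ h2))
  have hEz : Subgroup.zpowers e = E := by
    refine Subgroup.eq_of_le_of_card_ge (Subgroup.zpowers_le.2 heE) (hEcard.trans (le_of_eq ?_))
    rw [Nat.card_zpowers, orderOf_eq_prime heE.2.2 he1]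
  -- a lift of `e` of order `p`
  obtain ⟨a, haA, hae⟩ : ∃ a ∈ A, π a = e := by
    obtain ⟨g, hg⟩ := hπs e
    have : g ∈ A ⊔ K := by rw [hAsup, Subgroup.mem_comap, hg]; exact heE
    obtain ⟨a, ha, k, hk, rfl⟩ := Subgroup.mem_sup_of_normal_right.1 this
    exact ⟨a, ha, by rw [← hg, map_mul, show π k = 1 from (QuotientGroup.eq_one_iff k).2 hk, mul_one]⟩
  have ha1 : a ≠ 1 := fun h => he1 (by rw [← hae, h, map_one])
  have hCa : IsPGroup p ↥(Subgroup.centralizer ({a} : Set G)) := by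
    intro z
    have hzc : Commute a (z : G) := z.2 a rfl
    obtain ⟨k, r, hr, hkr⟩ := Nat.exists_eq_pow_mul_and_not_dvd (orderOf_pos (z : G)).ne' p hp.out.ne_one
    refine ⟨k, Subtype.ext ?_⟩
    rw [SubgroupClass.coe_pow]
    have hor : orderOf ((z : G) ^ p ^ k) = r := by
      rw [orderOf_pow, hkr, Nat.gcd_eq_right (dvd_mul_right _ _), Nat.mul_div_cancel_left _ (pow_pos hp.out.pos k)]
    have hcop : (orderOf ((z : G) ^ p ^ k)).Coprime p := by
      rw [hor]; exact (hp.out.coprime_iff_not_dvd.2 hr).symm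
    have hne : ∀ j : ℕ, (j : ℕ).Coprime p → e ^ j ≠ 1 := fun j hj h => he1 (by
      have := pow_gcd_eq_one.2 ⟨h, heE.2.2⟩
      rwa [hj, pow_one] at this)
    have hpw : ((z : G) ^ p ^ k) ^ orderOf ((z : G) ^ p ^ k) = 1 := pow_orderOf_eq_one _
    refine eq_one_of_commute H (hAexp a haA) ha1 hcop (hzc.pow_right _)
      (V1 _ (orderOf ((z : G) ^ p ^ k)) ?_ ?_) (V1 _ 1 ?_ ?_)
    · rw [← map_pow, (hzc.pow_right _).mul_pow, hpw, mul_one, map_pow, hae]; exact pow_mem heE _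
    · rw [← map_pow, (hzc.pow_right _).mul_pow, hpw, mul_one, map_pow, hae]; exact hne _ hcop
    · rw [pow_one, map_pow, hae]; exact pow_mem heE _
    · rw [pow_one, map_pow, hae]; exact hne _ hcop
  -- centralizers in the quotient lift
  have hlift : ∀ y : G ⧸ K, Commute y e → y ∈ (Subgroup.centralizer ({a} : Set G)).map π := by
    intro y hy
    obtain ⟨g, rfl⟩ := hπs y
    let φ : K → K := fun k => ⟨(k : G) * a * (k : G)⁻¹ * a⁻¹, by
      rw [show (k : G) * a * (k : G)⁻¹ * a⁻¹ = (k : G) * (a * (k : G)⁻¹ * a⁻¹) by group]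
      exact K.mul_mem k.2 (hKn.conj_mem _ (K.inv_mem k.2) a)⟩
    have hinj : Function.Injective φ := by
      intro k l hkl
      have h1 : (k : G) * a * (k : G)⁻¹ = (l : G) * a * (l : G)⁻¹ :=
        mul_right_cancel (congrArg Subtype.val hkl)
      have hc : (l : G)⁻¹ * (k : G) ∈ Subgroup.centralizer ({a} : Set G) := by
        intro x hx
        rw [Set.mem_singleton_iff.1 hx]
        calc a * ((l : G)⁻¹ * (k : G)) = (l : G)⁻¹ * ((l : G) * a * (l : G)⁻¹) * (k : G) := by group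
          _ = (l : G)⁻¹ * ((k : G) * a * (k : G)⁻¹) * (k : G) := by rw [h1]
          _ = (l : G)⁻¹ * (k : G) * a := by group
      obtain ⟨j, hj⟩ := hCa ⟨_, hc⟩
      have hj' : ((l : G)⁻¹ * (k : G)) ^ p ^ j = 1 := by
        have := congrArg Subtype.val hj
        rwa [SubgroupClass.coe_pow, OneMemClass.coe_one] at this
      have hk' : ((l : G)⁻¹ * (k : G)) ^ Nat.card K = 1 := by
        have := congrArg Subtype.val (pow_card_eq_one' (x := l⁻¹ * k))
        rw [SubgroupClass.coe_pow, OneMemClass.coe_one] at this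
        simpa using this
      have := pow_gcd_eq_one.2 ⟨hk', hj'⟩
      rw [hK.pow_right j, pow_one] at this
      exact (Subtype.ext (inv_mul_eq_one.1 this)).symm
    obtain ⟨k, hk⟩ := (Finite.injective_iff_surjective.1 hinj) ⟨g * a * g⁻¹ * a⁻¹, by
      rw [← QuotientGroup.eq_one_iff]
      show π (g * a * g⁻¹ * a⁻¹) = 1
      rw [map_mul, map_mul, map_mul, map_inv, map_inv, hae, hy.eq]; group⟩
    have h1 : (k : G) * a * (k : G)⁻¹ = g * a * g⁻¹ := mul_right_cancel (congrArg Subtype.val hk)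
    refine ⟨(k : G)⁻¹ * g, fun x hx => ?_, by
      rw [map_mul, map_inv, show π (k : G) = 1 from (QuotientGroup.eq_one_iff _).2 k.2, inv_one, one_mul]⟩
    rw [Set.mem_singleton_iff.1 hx]
    calc a * ((k : G)⁻¹ * g) = (k : G)⁻¹ * ((k : G) * a * (k : G)⁻¹) * g := by group
      _ = (k : G)⁻¹ * (g * a * g⁻¹) * g := by rw [h1]
      _ = (k : G)⁻¹ * g * a := by group
  have hCR : Subgroup.centralizer (E : Set (G ⧸ K)) ≤ R := by
    refine CfsgLib.PCore.le_pCore inferInstance ((hCa.map π).to_le fun y hy => hlift y ?_)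
    exact (hy e heE).symm
  have hPR : (P : Subgroup G).map π ≤ R := by
    intro y hy
    refine hCR ?_
    obtain ⟨z, hz, rfl⟩ := hy
    intro d hd
    rw [SetLike.mem_coe, ← hEz] at hd
    obtain ⟨i, rfl⟩ := Subgroup.mem_zpowers_iff.1 hd
    suffices hc : Commute (π z) e from ((hc.zpow_right i).symm).eq
    obtain ⟨l, hl⟩ : ∃ l : ℕ, e ^ l = π z * e * (π z)⁻¹ := by
      have h := hEn.conj_mem e heE (π z)
      rw [← hEz, ← mem_powers_iff_mem_zpowers] at h
      exact Submonoid.mem_powers_iff _ _ |>.1 h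
    have hiter : ∀ n : ℕ, π z ^ n * e * (π z ^ n)⁻¹ = e ^ (l ^ n) := by
      intro n
      induction n with
      | zero => simp
      | succ n ih =>
        calc π z ^ (n + 1) * e * (π z ^ (n + 1))⁻¹ = π z * (π z ^ n * e * (π z ^ n)⁻¹) * (π z)⁻¹ := by group
          _ = π z * e ^ (l ^ n) * (π z)⁻¹ := by rw [ih]
          _ = (π z * e * (π z)⁻¹) ^ (l ^ n) := by rw [conj_pow]
          _ = e ^ (l ^ (n + 1)) := by rw [← hl, ← pow_mul, pow_succ']
    obtain ⟨j, hj⟩ := P.2 ⟨z, hz⟩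
    have hzj : π z ^ p ^ j = 1 := by
      have := congrArg Subtype.val hj
      rw [SubgroupClass.coe_pow, OneMemClass.coe_one] at this
      rw [← map_pow, this, map_one]
    have h1 := hiter (p ^ j)
    rw [hzj, one_mul, inv_one, mul_one] at h1
    have ho : orderOf e = p := orderOf_eq_prime heE.2.2 he1
    have h2 : l ^ p ^ j ≡ 1 [MOD p] := by
      have h5 := pow_eq_pow_iff_modEq.1 (show e ^ (l ^ p ^ j) = e ^ 1 by rw [← h1, pow_one])
      rwa [ho] at h5
    have h3 : l ≡ 1 [MOD p] := by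
      rw [← ZMod.natCast_eq_natCast_iff] at h2 ⊢
      push_cast at h2 ⊢
      rwa [ZMod.pow_card_pow] at h2
    have h4 : e ^ l = e := by
      conv_rhs => rw [← pow_one e]
      exact pow_eq_pow_iff_modEq.2 (ho ▸ h3)
    show π z * e = e * π z
    calc π z * e = π z * e * (π z)⁻¹ * π z := by group
      _ = e * π z := by rw [← hl, h4]
  have hPcard : Nat.card P ≤ Nat.card R := by
    refine le_of_eq_of_le ?_ (Nat.card_le_card_of_injective (Subgroup.inclusion hPR) (Subgroup.inclusion_injective hPR))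
    rw [show Nat.card P = Nat.card (P : Subgroup G) from rfl]
    refine Nat.card_eq_of_bijective (fun x => ⟨π x.1, Subgroup.mem_map_of_mem π x.2⟩) ⟨fun x y h => ?_, ?_⟩
    · refine Subtype.ext (mul_inv_eq_one.1 (hinjP _ (mul_mem x.2 (inv_mem y.2)) ?_))
      rw [map_mul, map_inv, show π x.1 = π y.1 from congrArg Subtype.val h, mul_inv_cancel]
    · rintro ⟨_, x, hx, rfl⟩
      exact ⟨⟨x, hx⟩, rfl⟩
  refine hPcard.trans (le_trans (Subgroup.card_le_of_le ?_) hEcard)
  -- `R = E`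
  by_contra hRE
  haveI : (E.subgroupOf R).Normal := inferInstance
  haveI : Nontrivial (R ⧸ E.subgroupOf R) := by
    obtain ⟨x, hxR, hxE⟩ := SetLike.not_le_iff_exists.1 hRE
    exact ⟨⟨((⟨x, hxR⟩ : R) : R ⧸ E.subgroupOf R), 1, fun h => hxE ((QuotientGroup.eq_one_iff (N := E.subgroupOf R) ⟨x, hxR⟩).1 h)⟩⟩
  haveI := (hRp.to_quotient (E.subgroupOf R)).center_nontrivial
  obtain ⟨⟨xq, hxq⟩, hxq1⟩ := exists_ne (1 : Subgroup.center (R ⧸ E.subgroupOf R))
  obtain ⟨⟨x, hxR⟩, rfl⟩ := QuotientGroup.mk'_surjective (E.subgroupOf R) xq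
  have hxE : x ∉ E := fun h => hxq1 (Subtype.ext ((QuotientGroup.eq_one_iff _).2 h))
  have hxc : ∀ r ∈ R, r * x * r⁻¹ * x⁻¹ ∈ E := by
    intro r hr
    have h := Subgroup.mem_center_iff.1 hxq (QuotientGroup.mk' _ ⟨r, hr⟩)
    have h2 : ((⟨r, hr⟩ : R) * ⟨x, hxR⟩ * (⟨r, hr⟩ : R)⁻¹ * (⟨x, hxR⟩ : R)⁻¹) ∈ E.subgroupOf R := by
      rw [← QuotientGroup.eq_one_iff]
      show QuotientGroup.mk' (E.subgroupOf R) _ = 1
      rw [map_mul, map_mul, map_mul, map_inv, map_inv, h, mul_inv_cancel_right, mul_inv_cancel]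
    exact h2
  have hEx : ∀ d ∈ E, ∀ r ∈ R, Commute d r := fun d hd r hr => (hd.2.1 r hr).symm
  by_cases hxp : x ^ p = 1
  · -- the cosets of `E` outside it lie in classes
    have hVy : ∀ y ∈ R, y ∉ E → y ^ p = 1 → (∀ r ∈ R, r * y * r⁻¹ * y⁻¹ ∈ E) → Vanish y := by
      intro y hy hyE hyp hyc
      obtain ⟨r, hr, hne⟩ : ∃ r ∈ R, r * y * r⁻¹ * y⁻¹ ≠ 1 := by
        by_contra hne
        push_neg at hne
        refine hyE (hmemE.2 ⟨hy, fun r hr => ?_, hyp⟩)
        exact (mul_inv_eq_iff_eq_mul.1 (mul_inv_eq_one.1 (hne r hr)))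
      set c := r * y * r⁻¹ * y⁻¹ with hc
      have hcE : c ∈ E := hyc r hr
      have hiter : ∀ n : ℕ, r ^ n * y * (r ^ n)⁻¹ = c ^ n * y := by
        intro n
        induction n with
        | zero => simp
        | succ n ih =>
          calc r ^ (n + 1) * y * (r ^ (n + 1))⁻¹ = r * (r ^ n * y * (r ^ n)⁻¹) * r⁻¹ := by group
            _ = r * c ^ n * (y * r⁻¹) := by rw [ih]; group
            _ = c ^ n * r * (y * r⁻¹) := by rw [((hEx c hcE r hr).pow_left n).eq]
            _ = c ^ n * (c * y) := by rw [hc]; group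
            _ = c ^ (n + 1) * y := by rw [← mul_assoc, pow_succ]
      have hcz : Subgroup.zpowers c = E := by
        refine Subgroup.eq_of_le_of_card_ge (Subgroup.zpowers_le.2 hcE) (hEcard.trans (le_of_eq ?_))
        rw [Nat.card_zpowers, orderOf_eq_prime hcE.2.2 hne]
      letI : CommGroup E := { (inferInstance : Group E) with mul_comm := fun u v => Subtype.ext (hEc u u.2 v v.2) }
      obtain ⟨f, hf⟩ := CommGroup.exists_apply_ne_one_of_hasEnoughRootsOfUnity E ℂ
        (a := (⟨c, hcE⟩ : E)) (fun h => hne (congrArg Subtype.val h))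
      refine vanish_of_coset_conj E f (fun h => hf (by rw [h]; rfl)) y fun d hd => ?_
      rw [← hcz, ← mem_powers_iff_mem_zpowers] at hd
      obtain ⟨n, rfl⟩ := Submonoid.mem_powers_iff _ _ |>.1 hd
      exact isConj_iff.2 ⟨r ^ n, hiter n⟩
    let B : Subgroup (G ⧸ K) := Subgroup.zpowers x ⊔ E
    have hBform : ∀ y ∈ B, ∃ i : ℤ, ∃ d ∈ E, x ^ i * d = y := by
      intro y hy
      obtain ⟨u, hu, d, hd, rfl⟩ := Subgroup.mem_sup_of_normal_right.1 hy
      obtain ⟨i, rfl⟩ := Subgroup.mem_zpowers_iff.1 hu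
      exact ⟨i, d, hd, rfl⟩
    have hBR : B ≤ R := sup_le (Subgroup.zpowers_le.2 hxR) (fun d hd => hd.1)
    have hBp : ∀ y ∈ B, y ^ p = 1 := by
      intro y hy
      obtain ⟨i, d, hd, rfl⟩ := hBform y hy
      rw [Commute.mul_pow ((hEx d hd x hxR).symm.zpow_left i) p, hd.2.2, mul_one, ← zpow_natCast, ← zpow_mul,
        mul_comm, zpow_mul, zpow_natCast, hxp, one_zpow]
    have hBc : ∀ u ∈ B, ∀ v ∈ B, u * v = v * u := by
      intro u hu v hv
      obtain ⟨i, d, hd, rfl⟩ := hBform u hu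
      obtain ⟨j, d', hd', rfl⟩ := hBform v hv
      have c1 : Commute (x ^ i) (x ^ j) := Commute.zpow_zpow_self x i j
      have c2 : Commute (x ^ i) d' := (hEx d' hd' _ (zpow_mem hxR i)).symm
      have c3 : Commute d (x ^ j) := hEx d hd _ (zpow_mem hxR j)
      have c4 : Commute d d' := hEc d hd d' hd'
      exact ((c1.mul_right c2).mul_left (c3.mul_right c4)).eq
    have hBcomm : ∀ y ∈ B, ∀ r ∈ R, r * y * r⁻¹ * y⁻¹ ∈ E := by
      intro y hy r hr
      obtain ⟨i, d, hd, rfl⟩ := hBform y hy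
      rw [← QuotientGroup.eq_one_iff]
      show QuotientGroup.mk' E _ = 1
      have hd1 : QuotientGroup.mk' E d = 1 := (QuotientGroup.eq_one_iff d).2 hd
      have hcx : Commute (QuotientGroup.mk' E r) (QuotientGroup.mk' E x) := by
        rw [← commutatorElement_eq_one_iff_commute, ← map_commutatorElement]
        exact (QuotientGroup.eq_one_iff _).2 (hxc r hr)
      simp only [map_mul, map_inv, map_zpow, hd1, mul_one]
      rw [(hcx.zpow_right i).eq, mul_inv_cancel_right, mul_inv_cancel]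
    have hcardB : p < Nat.card B := by
      have hlt : E < B := lt_of_le_of_ne le_sup_right
        (fun h => hxE (h ▸ le_sup_left (b := E) (Subgroup.mem_zpowers x)))
      have hE : p ≤ Nat.card E := by
        rw [← hEz, Nat.card_zpowers, orderOf_eq_prime heE.2.2 he1]
      have h1 := Set.ncard_lt_ncard (SetLike.coe_ssubset_coe.2 hlt) (Set.toFinite _)
      rw [← Nat.card_coe_set_eq, ← Nat.card_coe_set_eq] at h1
      exact lt_of_le_of_lt hE h1
    refine absurd (card_le_of_lifts_vanish H K hK hK1 B hBp hBc fun g hg hg1 => ?_) (not_le.2 hcardB)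
    by_cases hgE : π g ∈ E
    · exact V1 g 1 ((pow_one (π g)).symm ▸ hgE) ((pow_one (π g)).symm ▸ hg1)
    · exact (hVy _ (hBR hg) hgE (hBp _ hg) (hBcomm _ hg)).comap hπs
  · -- a power of `x` is in `E`
    have hxpC : x ^ p ∈ Subgroup.centralizer (R : Set (G ⧸ K)) := by
      intro r hr
      have hc := hxc r hr
      have h1 : r * x * r⁻¹ = (r * x * r⁻¹ * x⁻¹) * x := by group
      have h2 : r * x ^ p * r⁻¹ = x ^ p := by
        rw [← conj_pow, h1, (hEx _ hc x hxR).mul_pow, hc.2.2, one_mul]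
      exact mul_inv_eq_iff_eq_mul.1 h2
    obtain ⟨t, ht, hto⟩ : ∃ t : ℕ, 1 ≤ t ∧ orderOf x = p ^ (t + 1) := by
      obtain ⟨s, hs⟩ := IsPGroup.iff_orderOf.1 hRp ⟨x, hxR⟩
      rw [Subgroup.orderOf_mk] at hs
      refine ⟨s - 1, ?_⟩
      have h2 : ¬ s ≤ 1 := fun h => hxp (orderOf_dvd_iff_pow_eq_one.1 (hs ▸ (pow_dvd_pow p h).trans (by rw [pow_one])))
      exact ⟨by omega, by rw [hs]; congr 1; omega⟩
    have hw1 : x ^ p ^ t ≠ 1 := by
      intro h
      have := orderOf_dvd_of_pow_eq_one h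
      rw [hto, Nat.pow_dvd_pow_iff_le_right hp.out.one_lt] at this
      omega
    have hwE : x ^ p ^ t ∈ E := by
      refine hmemE.2 ⟨pow_mem hxR _, ?_, by rw [← pow_mul, ← pow_succ, ← hto, pow_orderOf_eq_one]⟩
      obtain ⟨t', rfl⟩ : ∃ t', t = t' + 1 := ⟨t - 1, by omega⟩
      rw [pow_succ', pow_mul]
      exact pow_mem hxpC _
    obtain ⟨g, hg⟩ := hπs x
    have hd1 : p ∣ orderOf g := (dvd_pow_self p t.succ_ne_zero).trans (hto ▸ hg ▸ orderOf_map_dvd π g)
    have hd2 : p ∣ orderOf (g ^ p ^ t) := by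
      have h := orderOf_map_dvd π (g ^ p ^ t)
      rw [map_pow, hg, orderOf_eq_prime hwE.2.2 hw1] at h
      exact h
    have := H g (p ^ t) hd1 hd2 (V1 g (p ^ t) (hg.symm ▸ hwE) (hg.symm ▸ hw1))
      (V1 _ 1 (by rw [pow_one, map_pow, hg]; exact hwE) (by rw [pow_one, map_pow, hg]; exact hw1))
    exact hp.out.one_lt.ne' (Nat.Coprime.eq_one_of_dvd
      (Nat.Coprime.coprime_dvd_right hd1 (Nat.Coprime.coprime_dvd_left (dvd_pow_self p (by omega)) this)) dvd_rfl)

end CfsgLib.VanishingP
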