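import Mathlib
import Cfsg.Agent.VanishingP.Main

/-!
Consequence for the Sylow subgroups of a solvable group.
-/

set_option autoImplicit false

namespace CfsgLib.VanishingP

universe u

variable {G : Type u} [Group G] {p : ℕ}

theorem card_map_sylow_le [Finite G] [Group.IsSolvable G] [hp : Fact p.Prime]
    (H : ∀ a b : G, p ∣ orderOf a → p ∣ orderOf b → Vanish a → Vanish b → orderOf a = orderOf b)
    (P : Sylow p G) : Nat.card ↥((P : Subgroup G).map (QuotientGroup.mk' (Cfsg.pCore p G))) ≤ p := by
  haveI := Cfsg.pCore_normal p G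
  set π := QuotientGroup.mk' (Cfsg.pCore p G) with hπ
  have hπs : Function.Surjective π := QuotientGroup.mk'_surjective _
  haveI : Group.IsSolvable (G ⧸ Cfsg.pCore p G) := solvable_of_surjective hπs
  have hone : OneOrder p (G ⧸ Cfsg.pCore p G) := by
    intro x m hx hxm hV hVm
    obtain ⟨g, rfl⟩ := hπs x
    rw [← map_pow] at hxm hVm
    have h := H g (g ^ m) (hx.trans (orderOf_map_dvd π g)) (hxm.trans (orderOf_map_dvd π _)) (hV.comap hπs) (hVm.comap hπs)
    rw [orderOf_pow] at h
    have hpos := orderOf_pos g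
    have hg : Nat.gcd (orderOf g) m = 1 := by
      have h1 := Nat.div_mul_cancel (Nat.gcd_dvd_left (orderOf g) m)
      rw [← h] at h1
      exact mul_left_cancel₀ hpos.ne' (h1.trans (mul_one _).symm)
    exact Nat.Coprime.coprime_dvd_right (orderOf_map_dvd π g) (Nat.Coprime.symm hg)
  exact main CfsgLib.PCore.pCore_quotient hone (P.mapSurjective hπs)

end CfsgLib.VanishingP
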